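import Mathlib
import Cfsg.Prelude.Def_Spor_Fi23
import Cfsg.Agent.Lib.Helper56.TCSimple
import Cfsg.Agent.Lib.Helper56.Fi23a.Cert
import Cfsg.Agent.Lib.Helper56.Fi23S.Orb
import Cfsg.Agent.Lib.Helper56.Fi23U0.Cert
import Cfsg.Agent.Lib.Helper56.Fi23U1.Cert
import Cfsg.Agent.Lib.Helper56.Fi23U2.Cert
import Cfsg.Agent.Lib.Helper56.Fi23U3.Cert
import Cfsg.Agent.Lib.Helper56.Fi23U4.Cert
import Cfsg.Agent.Lib.Helper56.Fi23U5.Cert
import Cfsg.Agent.Lib.Helper56.Fi23U6.Cert
import Cfsg.Agent.Lib.Helper56.Fi23U7.Cert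
import Cfsg.Agent.Lib.Helper56.Fi23U8.Cert
import Cfsg.Agent.S1689
set_option autoImplicit false
set_option maxRecDepth 1000000

/-!
The presented group `Cfsg.Spor.Fi23` is simple of order `4089470473293004800`: upper bound from coset enumeration
certificates along a chain of subgroups generated by initial segments of the generators, lower
bound and simplicity from the permutation representation on the final names of a certificate.
-/

namespace Cfsg.Agent.Lib.Helper56.Fi23S

open Cfsg.Spor Cfsg.Agent.Lib.Helper56.TC Cfsg.Agent.Lib.Helper56.TC.Tabs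
open Cfsg.Agent.Lib.Helper19.Cox (L L_mono mem_L L_zero)

/-- part 1 of the certificate of the permutation representation -/
theorem hP : Fi23a.T.P1 := Fi23a.cert.p1

/-- the generators in the order of the letters of the table -/
def gens : List Fi23.Gen := [Fi23.Gen.a, Fi23.Gen.b, Fi23.Gen.c, Fi23.Gen.d, Fi23.Gen.e, Fi23.Gen.f, Fi23.Gen.g, Fi23.Gen.j, Fi23.Gen.h, Fi23.Gen.i]

/-- the generators in the order of the chain of subgroups -/
def gensU : List Fi23.Gen := [Fi23.Gen.a, Fi23.Gen.b, Fi23.Gen.c, Fi23.Gen.d, Fi23.Gen.e, Fi23.Gen.f, Fi23.Gen.h, Fi23.Gen.i, Fi23.Gen.g, Fi23.Gen.j]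

theorem hall : ∀ x : Fi23.Gen, x ∈ gens := by intro x; cases x <;> decide
theorem hallU : ∀ x : Fi23.Gen, x ∈ gensU := by intro x; cases x <;> decide
theorem hnodeU : ∀ x ∈ gensU, x ∈ coxNodes Fi23.edges := by decide
theorem hrels : Fi23a.T.rels1 = coxW Fi23.edges gens ++ Fi23.extra.map (wordOf gens) := by
  decide +kernel

/-! ### The lower bound -/

theorem lower : 4089470473293004800 ≤ Nat.card (L (sigma hP) Fi23a.T.K) := by
  have h0 := chain_step hP [] o0R 0 (by decide +kernel) o0_all o0_hg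
  have e0 : o0R.m = 31671 := rfl
  rw [e0] at h0
  have h1 := chain_step hP [0] o1R 52 (by decide +kernel) o1_all o1_hg
  have e1 : o1R.m = 3510 := rfl
  rw [e1] at h1
  have h2 := chain_step hP [52, 0] o2R 1 (by decide +kernel) o2_all o2_hg
  have e2 : o2R.m = 25344 := rfl
  rw [e2] at h2
  have h3 := chain_step hP [1, 52, 0] o3R 621 (by decide +kernel) o3_all o3_hg
  have e3 : o3R.m = 63 := rfl
  rw [e3] at h3
  have h4 := chain_step hP [621, 1, 52, 0] o4R 10 (by decide +kernel) o4_all o4_hg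
  have e4 : o4R.m = 96 := rfl
  rw [e4] at h4
  have h5 := chain_step hP [10, 621, 1, 52, 0] o5R 62 (by decide +kernel) o5_all o5_hg
  have e5 : o5R.m = 2 := rfl
  rw [e5] at h5
  have h6 := chain_step hP [62, 10, 621, 1, 52, 0] o6R 374 (by decide +kernel) o6_all o6_hg
  have e6 : o6R.m = 120 := rfl
  rw [e6] at h6
  have hlast : 0 < Nat.card (stabs hP [374, 62, 10, 621, 1, 52, 0]) := Nat.card_pos
  have hfirst : Nat.card (stabs hP []) = Nat.card (L (sigma hP) Fi23a.T.K) := rfl
  rw [← hfirst]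
  omega


/-! ### Primitivity and simplicity -/

theorem hN : Fi23a.T.N = 31671 := rfl

theorem prim : MulAction.IsPreprimitive (L (sigma hP) Fi23a.T.K) (Fin Fi23a.T.N) := by
  apply prim_rank3 hP oAR o1R 1 52 (by decide +kernel) (by decide +kernel) oA_all o1_all
    oA_hg o1_hg
  · intro y hy
    rw [hN] at hy
    exact cover_all y hy
  · exact zeroA
  · exact zeroB
  · rw [cntA, hN]; norm_num
  · rw [cntB, hN]; norm_num

theorem simple (hc : Nat.card (L (sigma hP) Fi23a.T.K) = 4089470473293004800) :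
    IsSimpleGroup (L (sigma hP) Fi23a.T.K) := by
  have := prim
  apply simple_of_primitive_pow (L (sigma hP) Fi23a.T.K) 23 1 (by norm_num)
  · rw [Nat.card_eq_fintype_card, Fintype.card_fin, hN]
    norm_num
  · rw [hc]; norm_num
  · apply ncl_braid hP (fun _ _ => rfl) 23 wy (by decide +kernel) (by decide +kernel)
    · intro v hv
      rw [hN] at hv
      exact py_all v hv
    · intro v hv
      rw [hN] at hv
      exact pz_all v hv
    · decide +kernel
  · rw [← Finite.one_lt_card_iff_nontrivial, hc]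
    norm_num

/-! ### The upper bound -/

/-- the generators of the presented group in the order of the chain -/
noncomputable abbrev u : ℕ → Fi23 := pgen Fi23.edges Fi23.extra gensU

theorem hu : ∀ i, u i * u i = 1 := pgen_sq Fi23.edges Fi23.extra hallU hnodeU

theorem relU : ∀ w ∈ coxW Fi23.edges gensU ++ Fi23.extra.map (wordOf gensU), ew u w = 1 :=
  pgen_rel Fi23.edges Fi23.extra hallU hnodeU

theorem up0 : Finite (L u 0) ∧ Nat.card (L u 0) ≤ 1 := chain_zero u

theorem sub0 : ∀ w ∈ Fi23U0.T.rels1, w ∈ coxW Fi23.edges gensU ++ Fi23.extra.map (wordOf gensU) := by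
  decide +kernel

theorem up1 : Finite (L u 1) ∧ Nat.card (L u 1) ≤ 2 := by
  have h := chain_upper u Fi23U0.T 0 1 Fi23U0.cert (by decide +kernel) (fun _ _ => rfl)
    (by decide +kernel) hu (fun w hw => relU w (sub0 w hw)) up0
  have e : Fi23U0.T.N = 2 := rfl
  rw [e] at h
  exact ⟨h.1, le_trans h.2 (by norm_num)⟩

theorem sub1 : ∀ w ∈ Fi23U1.T.rels1, w ∈ coxW Fi23.edges gensU ++ Fi23.extra.map (wordOf gensU) := by
  decide +kernel

theorem up2 : Finite (L u 2) ∧ Nat.card (L u 2) ≤ 6 := by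
  have h := chain_upper u Fi23U1.T 1 2 Fi23U1.cert (by decide +kernel) (fun _ _ => rfl)
    (by decide +kernel) hu (fun w hw => relU w (sub1 w hw)) up1
  have e : Fi23U1.T.N = 3 := rfl
  rw [e] at h
  exact ⟨h.1, le_trans h.2 (by norm_num)⟩

theorem sub2 : ∀ w ∈ Fi23U2.T.rels1, w ∈ coxW Fi23.edges gensU ++ Fi23.extra.map (wordOf gensU) := by
  decide +kernel

theorem up3 : Finite (L u 3) ∧ Nat.card (L u 3) ≤ 24 := by
  have h := chain_upper u Fi23U2.T 2 6 Fi23U2.cert (by decide +kernel) (fun _ _ => rfl)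
    (by decide +kernel) hu (fun w hw => relU w (sub2 w hw)) up2
  have e : Fi23U2.T.N = 4 := rfl
  rw [e] at h
  exact ⟨h.1, le_trans h.2 (by norm_num)⟩

theorem sub3 : ∀ w ∈ Fi23U3.T.rels1, w ∈ coxW Fi23.edges gensU ++ Fi23.extra.map (wordOf gensU) := by
  decide +kernel

theorem up4 : Finite (L u 4) ∧ Nat.card (L u 4) ≤ 120 := by
  have h := chain_upper u Fi23U3.T 3 24 Fi23U3.cert (by decide +kernel) (fun _ _ => rfl)
    (by decide +kernel) hu (fun w hw => relU w (sub3 w hw)) up3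
  have e : Fi23U3.T.N = 5 := rfl
  rw [e] at h
  exact ⟨h.1, le_trans h.2 (by norm_num)⟩

theorem sub4 : ∀ w ∈ Fi23U4.T.rels1, w ∈ coxW Fi23.edges gensU ++ Fi23.extra.map (wordOf gensU) := by
  decide +kernel

theorem up5 : Finite (L u 5) ∧ Nat.card (L u 5) ≤ 720 := by
  have h := chain_upper u Fi23U4.T 4 120 Fi23U4.cert (by decide +kernel) (fun _ _ => rfl)
    (by decide +kernel) hu (fun w hw => relU w (sub4 w hw)) up4
  have e : Fi23U4.T.N = 6 := rfl
  rw [e] at h
  exact ⟨h.1, le_trans h.2 (by norm_num)⟩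

theorem sub5 : ∀ w ∈ Fi23U5.T.rels1, w ∈ coxW Fi23.edges gensU ++ Fi23.extra.map (wordOf gensU) := by
  decide +kernel

theorem up6 : Finite (L u 6) ∧ Nat.card (L u 6) ≤ 5040 := by
  have h := chain_upper u Fi23U5.T 5 720 Fi23U5.cert (by decide +kernel) (fun _ _ => rfl)
    (by decide +kernel) hu (fun w hw => relU w (sub5 w hw)) up5
  have e : Fi23U5.T.N = 7 := rfl
  rw [e] at h
  exact ⟨h.1, le_trans h.2 (by norm_num)⟩

theorem sub6 : ∀ w ∈ Fi23U6.T.rels1, w ∈ coxW Fi23.edges gensU ++ Fi23.extra.map (wordOf gensU) := by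
  decide +kernel

theorem up7 : Finite (L u 7) ∧ Nat.card (L u 7) ≤ 1451520 := by
  have h := chain_upper u Fi23U6.T 6 5040 Fi23U6.cert (by decide +kernel) (fun _ _ => rfl)
    (by decide +kernel) hu (fun w hw => relU w (sub6 w hw)) up6
  have e : Fi23U6.T.N = 288 := rfl
  rw [e] at h
  exact ⟨h.1, le_trans h.2 (by norm_num)⟩

theorem sub7 : ∀ w ∈ Fi23U7.T.rels1, w ∈ coxW Fi23.edges gensU ++ Fi23.extra.map (wordOf gensU) := by
  decide +kernel

theorem up8 : Finite (L u 8) ∧ Nat.card (L u 8) ≤ 4585351680 := by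
  have h := chain_upper u Fi23U7.T 7 1451520 Fi23U7.cert (by decide +kernel) (fun _ _ => rfl)
    (by decide +kernel) hu (fun w hw => relU w (sub7 w hw)) up7
  have e : Fi23U7.T.N = 3159 := rfl
  rw [e] at h
  exact ⟨h.1, le_trans h.2 (by norm_num)⟩

theorem sub8 : ∀ w ∈ Fi23U8.T.rels1, w ∈ coxW Fi23.edges gensU ++ Fi23.extra.map (wordOf gensU) := by
  decide +kernel

theorem up9 : Finite (L u 9) ∧ Nat.card (L u 9) ≤ 129123503308800 := by
  have h := chain_upper u Fi23U8.T 8 4585351680 Fi23U8.cert (by decide +kernel) (fun _ _ => rfl)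
    (by decide +kernel) hu (fun w hw => relU w (sub8 w hw)) up8
  have e : Fi23U8.T.N = 28160 := rfl
  rw [e] at h
  exact ⟨h.1, le_trans h.2 (by norm_num)⟩

theorem H_eq : (Subgroup.closure ({Fi23.a, Fi23.b, Fi23.c, Fi23.d, Fi23.e, Fi23.f, Fi23.g, Fi23.h, Fi23.i} : Set (FreeGroup Fi23.Gen))).map
    (PresentedGroup.mk (coxRelators Fi23.edges ∪ {r | r ∈ Fi23.extra})) = L u 9 := by
  rw [pgen_L Fi23.edges Fi23.extra 9 (by decide)]
  congr 2
  ext r
  simp [gensU]
  unfold Fi23.a Fi23.b Fi23.c Fi23.d Fi23.e Fi23.f Fi23.g Fi23.h Fi23.i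
  tauto

theorem card_le : Finite Fi23 ∧ Nat.card Fi23 ≤ 4089470473293004800 := by
  obtain ⟨f, h⟩ := up9
  have hidx : (L u 9).index = 31671 := by
    rw [← H_eq]
    exact Cfsg.Agent.S1689.result.1
  have h2 := card_le_of_index (L u 9) 31671 129123503308800 hidx (by norm_num) f h
  exact ⟨h2.1, le_trans h2.2 (by norm_num)⟩

/-- The presented group is simple of order `4089470473293004800`. -/
theorem main : IsSimpleGroup Fi23 ∧ Nat.card Fi23 = 4089470473293004800 :=
  pres_simple Fi23.edges Fi23.extra Fi23a.T hP (by decide +kernel) (by decide) hall (fun _ _ => rfl)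
    hrels 4089470473293004800 card_le lower simple

end Cfsg.Agent.Lib.Helper56.Fi23S
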