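import Mathlib
import Cfsg.Agent.Lib.Helper56.TCPerm
import Cfsg.Agent.Lib.Helper56.TCPow
import Cfsg.Agent.Lib.Helper56.Fi23a.Cert
import Cfsg.Agent.Lib.Helper56.Fi23S.OrbD
set_option autoImplicit false
set_option maxRecDepth 1000000

namespace Cfsg.Agent.Lib.Helper56.Fi23S

open Cfsg.Agent.Lib.Helper56.TC Cfsg.Agent.Lib.Helper56.TC.Tabs

theorem o0_c0 : allRange (fun x => forceN (chkOrb Fi23a.T o0R 0) x) 0 21428 = true := by decide +kernel
theorem o0_c21428 : allRange (fun x => forceN (chkOrb Fi23a.T o0R 0) x) 21428 10243 = true := by decide +kernel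
theorem o1_c0 : allRange (fun x => forceN (chkOrb Fi23a.T o1R 52) x) 0 2307 = true := by decide +kernel
theorem o1_c2307 : allRange (fun x => forceN (chkOrb Fi23a.T o1R 52) x) 2307 1203 = true := by decide +kernel
theorem o2_c0 : allRange (fun x => forceN (chkOrb Fi23a.T o2R 1) x) 0 2459 = true := by decide +kernel
theorem o2_c2459 : allRange (fun x => forceN (chkOrb Fi23a.T o2R 1) x) 2459 2459 = true := by decide +kernel
theorem o2_c4918 : allRange (fun x => forceN (chkOrb Fi23a.T o2R 1) x) 4918 2459 = true := by decide +kernel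
theorem o2_c7377 : allRange (fun x => forceN (chkOrb Fi23a.T o2R 1) x) 7377 2459 = true := by decide +kernel
theorem o2_c9836 : allRange (fun x => forceN (chkOrb Fi23a.T o2R 1) x) 9836 2459 = true := by decide +kernel
theorem o2_c12295 : allRange (fun x => forceN (chkOrb Fi23a.T o2R 1) x) 12295 2459 = true := by decide +kernel

end Cfsg.Agent.Lib.Helper56.Fi23S
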