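import Mathlib
import Cfsg.Agent.Lib.Helper56.TCPerm
import Cfsg.Agent.Lib.Helper56.TCPow
import Cfsg.Agent.Lib.Helper56.Fi23a.Cert
import Cfsg.Agent.Lib.Helper56.Fi23S.OrbD
set_option autoImplicit false
set_option maxRecDepth 1000000

namespace Cfsg.Agent.Lib.Helper56.Fi23S

open Cfsg.Agent.Lib.Helper56.TC Cfsg.Agent.Lib.Helper56.TC.Tabs

theorem o2_c14754 : allRange (fun x => forceN (chkOrb Fi23a.T o2R 1) x) 14754 2459 = true := by decide +kernel
theorem o2_c17213 : allRange (fun x => forceN (chkOrb Fi23a.T o2R 1) x) 17213 2459 = true := by decide +kernel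
theorem o2_c19672 : allRange (fun x => forceN (chkOrb Fi23a.T o2R 1) x) 19672 2459 = true := by decide +kernel
theorem o2_c22131 : allRange (fun x => forceN (chkOrb Fi23a.T o2R 1) x) 22131 2459 = true := by decide +kernel
theorem o2_c24590 : allRange (fun x => forceN (chkOrb Fi23a.T o2R 1) x) 24590 754 = true := by decide +kernel
theorem o3_c0 : allRange (fun x => forceN (chkOrb Fi23a.T o3R 621) x) 0 63 = true := by decide +kernel
theorem o4_c0 : allRange (fun x => forceN (chkOrb Fi23a.T o4R 10) x) 0 96 = true := by decide +kernel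
theorem o5_c0 : allRange (fun x => forceN (chkOrb Fi23a.T o5R 62) x) 0 2 = true := by decide +kernel
theorem o6_c0 : allRange (fun x => forceN (chkOrb Fi23a.T o6R 374) x) 0 120 = true := by decide +kernel
theorem oA_c0 : allRange (fun x => forceN (chkOrb Fi23a.T oAR 1) x) 0 2307 = true := by decide +kernel

end Cfsg.Agent.Lib.Helper56.Fi23S
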