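import Mathlib
import Cfsg.Agent.Lib.Helper56.TCPerm
import Cfsg.Agent.Lib.Helper56.TCPow
import Cfsg.Agent.Lib.Helper56.Fi23a.Cert
import Cfsg.Agent.Lib.Helper56.Fi23S.OrbD
set_option autoImplicit false
set_option maxRecDepth 1000000

namespace Cfsg.Agent.Lib.Helper56.Fi23S

open Cfsg.Agent.Lib.Helper56.TC Cfsg.Agent.Lib.Helper56.TC.Tabs

theorem oA_c2307 : allRange (fun x => forceN (chkOrb Fi23a.T oAR 1) x) 2307 2307 = true := by decide +kernel
theorem oA_c4614 : allRange (fun x => forceN (chkOrb Fi23a.T oAR 1) x) 4614 2307 = true := by decide +kernel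
theorem oA_c6921 : allRange (fun x => forceN (chkOrb Fi23a.T oAR 1) x) 6921 2307 = true := by decide +kernel
theorem oA_c9228 : allRange (fun x => forceN (chkOrb Fi23a.T oAR 1) x) 9228 2307 = true := by decide +kernel
theorem oA_c11535 : allRange (fun x => forceN (chkOrb Fi23a.T oAR 1) x) 11535 2307 = true := by decide +kernel
theorem oA_c13842 : allRange (fun x => forceN (chkOrb Fi23a.T oAR 1) x) 13842 2307 = true := by decide +kernel
theorem oA_c16149 : allRange (fun x => forceN (chkOrb Fi23a.T oAR 1) x) 16149 2307 = true := by decide +kernel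
theorem oA_c18456 : allRange (fun x => forceN (chkOrb Fi23a.T oAR 1) x) 18456 2307 = true := by decide +kernel
theorem oA_c20763 : allRange (fun x => forceN (chkOrb Fi23a.T oAR 1) x) 20763 2307 = true := by decide +kernel
theorem oA_c23070 : allRange (fun x => forceN (chkOrb Fi23a.T oAR 1) x) 23070 2307 = true := by decide +kernel

end Cfsg.Agent.Lib.Helper56.Fi23S
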