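import Mathlib
import Cfsg.Agent.Lib.Helper56.TCPerm
import Cfsg.Agent.Lib.Helper56.TCPow
import Cfsg.Agent.Lib.Helper56.Fi23a.Cert
import Cfsg.Agent.Lib.Helper56.Fi23S.OrbD
set_option autoImplicit false
set_option maxRecDepth 1000000

namespace Cfsg.Agent.Lib.Helper56.Fi23S

open Cfsg.Agent.Lib.Helper56.TC Cfsg.Agent.Lib.Helper56.TC.Tabs

theorem oA_c25377 : allRange (fun x => forceN (chkOrb Fi23a.T oAR 1) x) 25377 2307 = true := by decide +kernel
theorem oA_c27684 : allRange (fun x => forceN (chkOrb Fi23a.T oAR 1) x) 27684 476 = true := by decide +kernel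
theorem cover_c0 : allRange (fun x => forceN (fun y => Nat.beq y 0 || (inOrb oAR y || inOrb o1R y)) x) 0 31671 = true := by decide +kernel
theorem pyT_c0 : allRange (fun x => forceN (chkPowT Fi23a.T tauy wy 23) x) 0 2542 = true := by decide +kernel
theorem pyT_c2542 : allRange (fun x => forceN (chkPowT Fi23a.T tauy wy 23) x) 2542 2542 = true := by decide +kernel
theorem pyT_c5084 : allRange (fun x => forceN (chkPowT Fi23a.T tauy wy 23) x) 5084 2542 = true := by decide +kernel
theorem pyT_c7626 : allRange (fun x => forceN (chkPowT Fi23a.T tauy wy 23) x) 7626 2542 = true := by decide +kernel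
theorem pyT_c10168 : allRange (fun x => forceN (chkPowT Fi23a.T tauy wy 23) x) 10168 2542 = true := by decide +kernel
theorem pyT_c12710 : allRange (fun x => forceN (chkPowT Fi23a.T tauy wy 23) x) 12710 2542 = true := by decide +kernel
theorem pyT_c15252 : allRange (fun x => forceN (chkPowT Fi23a.T tauy wy 23) x) 15252 2542 = true := by decide +kernel

end Cfsg.Agent.Lib.Helper56.Fi23S
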