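import Mathlib
import Cfsg.Agent.Lib.Helper56.TCPerm
import Cfsg.Agent.Lib.Helper56.TCPow
import Cfsg.Agent.Lib.Helper56.Fi23a.Cert
import Cfsg.Agent.Lib.Helper56.Fi23S.OrbD
set_option autoImplicit false
set_option maxRecDepth 1000000

namespace Cfsg.Agent.Lib.Helper56.Fi23S

open Cfsg.Agent.Lib.Helper56.TC Cfsg.Agent.Lib.Helper56.TC.Tabs

theorem pyT_c17794 : allRange (fun x => forceN (chkPowT Fi23a.T tauy wy 23) x) 17794 2542 = true := by decide +kernel
theorem pyT_c20336 : allRange (fun x => forceN (chkPowT Fi23a.T tauy wy 23) x) 20336 2542 = true := by decide +kernel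
theorem pyT_c22878 : allRange (fun x => forceN (chkPowT Fi23a.T tauy wy 23) x) 22878 2542 = true := by decide +kernel
theorem pyT_c25420 : allRange (fun x => forceN (chkPowT Fi23a.T tauy wy 23) x) 25420 2542 = true := by decide +kernel
theorem pyT_c27962 : allRange (fun x => forceN (chkPowT Fi23a.T tauy wy 23) x) 27962 2542 = true := by decide +kernel
theorem pyT_c30504 : allRange (fun x => forceN (chkPowT Fi23a.T tauy wy 23) x) 30504 1167 = true := by decide +kernel
theorem pzT_c0 : allRange (fun x => forceN (chkPowT Fi23a.T tauz (wy.reverse ++ [0]) 23) x) 0 2500 = true := by decide +kernel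
theorem pzT_c2500 : allRange (fun x => forceN (chkPowT Fi23a.T tauz (wy.reverse ++ [0]) 23) x) 2500 2500 = true := by decide +kernel
theorem pzT_c5000 : allRange (fun x => forceN (chkPowT Fi23a.T tauz (wy.reverse ++ [0]) 23) x) 5000 2500 = true := by decide +kernel
theorem pzT_c7500 : allRange (fun x => forceN (chkPowT Fi23a.T tauz (wy.reverse ++ [0]) 23) x) 7500 2500 = true := by decide +kernel

end Cfsg.Agent.Lib.Helper56.Fi23S
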