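import Mathlib
import Cfsg.Agent.Lib.Helper56.TCPerm
import Cfsg.Agent.Lib.Helper56.TCPow
import Cfsg.Agent.Lib.Helper56.Fi23a.Cert
import Cfsg.Agent.Lib.Helper56.Fi23S.OrbD
set_option autoImplicit false
set_option maxRecDepth 1000000

namespace Cfsg.Agent.Lib.Helper56.Fi23S

open Cfsg.Agent.Lib.Helper56.TC Cfsg.Agent.Lib.Helper56.TC.Tabs

theorem pzT_c10000 : allRange (fun x => forceN (chkPowT Fi23a.T tauz (wy.reverse ++ [0]) 23) x) 10000 2500 = true := by decide +kernel
theorem pzT_c12500 : allRange (fun x => forceN (chkPowT Fi23a.T tauz (wy.reverse ++ [0]) 23) x) 12500 2500 = true := by decide +kernel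
theorem pzT_c15000 : allRange (fun x => forceN (chkPowT Fi23a.T tauz (wy.reverse ++ [0]) 23) x) 15000 2500 = true := by decide +kernel
theorem pzT_c17500 : allRange (fun x => forceN (chkPowT Fi23a.T tauz (wy.reverse ++ [0]) 23) x) 17500 2500 = true := by decide +kernel
theorem pzT_c20000 : allRange (fun x => forceN (chkPowT Fi23a.T tauz (wy.reverse ++ [0]) 23) x) 20000 2500 = true := by decide +kernel
theorem pzT_c22500 : allRange (fun x => forceN (chkPowT Fi23a.T tauz (wy.reverse ++ [0]) 23) x) 22500 2500 = true := by decide +kernel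
theorem pzT_c25000 : allRange (fun x => forceN (chkPowT Fi23a.T tauz (wy.reverse ++ [0]) 23) x) 25000 2500 = true := by decide +kernel
theorem pzT_c27500 : allRange (fun x => forceN (chkPowT Fi23a.T tauz (wy.reverse ++ [0]) 23) x) 27500 2500 = true := by decide +kernel
theorem pzT_c30000 : allRange (fun x => forceN (chkPowT Fi23a.T tauz (wy.reverse ++ [0]) 23) x) 30000 1671 = true := by decide +kernel

end Cfsg.Agent.Lib.Helper56.Fi23S
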